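import Cfsg.Agent.UniqueMaxAlt.Basic
import Cfsg.Agent.Known.SylowTwoSym

/-!
Sylow `2`-subgroups of symmetric and alternating groups in a unique maximal subgroup.
-/

set_option autoImplicit false
set_option linter.unusedSectionVars false
set_option linter.style.haveILetI false

namespace Cfsg.Agent.UniqueMaxAlt

open Equiv Equiv.Perm MulAction Cfsg.Agent.Known
open scoped Pointwise

/-- The conclusion for the symmetric and the alternating group on `α`. -/
def Ans (α : Type*) [Fintype α] [DecidableEq α] (P : Prop) : Prop :=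
  (∀ R : Sylow 2 (alternatingGroup α), Uniq (R : Subgroup (alternatingGroup α)) ↔ P) ∧
  (∀ R : Sylow 2 (Perm α), Uniq (R : Subgroup (Perm α)) ↔ P)

theorem Ans.congr {α β : Type*} [Fintype α] [DecidableEq α] [Fintype β] [DecidableEq β] (e : α ≃ β)
    {P : Prop} (h : Ans α P) : Ans β P :=
  ⟨forall_uniq_congr e.altCongrHom P h.1, forall_uniq_congr (Equiv.permCongrHom e) P h.2⟩

variable {α : Type*} [Fintype α] [DecidableEq α]

/-- The negative answer, from two subgroups of the symmetric group. -/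
theorem ans_false [Nontrivial α] (K₁ K₂ : Subgroup (Perm α)) (hodd : Odd (K₁ ⊓ K₂).index)
    (h1 : ∃ g ∈ alternatingGroup α, g ∉ K₁) (h2 : ∃ g ∈ alternatingGroup α, g ∉ K₂)
    (hgen : ∀ M : Subgroup (Perm α), (∀ g ∈ alternatingGroup α, g ∈ K₁ → g ∈ M) →
      (∀ g ∈ alternatingGroup α, g ∈ K₂ → g ∈ M) → alternatingGroup α ≤ M) :
    Ans α False := by
  have hA : (alternatingGroup α).index = 2 := alternatingGroup.index_eq_two
  refine ⟨fun R => iff_false_intro ?_, fun R => iff_false_intro ?_⟩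
  · refine forall_not_uniq (K₁ := K₁.subgroupOf (alternatingGroup α))
      (K₂ := K₂.subgroupOf (alternatingGroup α)) ?_ ?_ ?_ ?_ R
    · rw [Ne, Subgroup.subgroupOf_eq_top]
      exact fun h => h1.elim fun g hg => hg.2 (h hg.1)
    · rw [Ne, Subgroup.subgroupOf_eq_top]
      exact fun h => h2.elim fun g hg => hg.2 (h hg.1)
    · rw [eq_top_iff]
      intro x _
      obtain ⟨y, hy, he⟩ := hgen ((K₁.subgroupOf (alternatingGroup α) ⊔
          K₂.subgroupOf (alternatingGroup α)).map (alternatingGroup α).subtype)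
        (fun g hg hgK => ⟨⟨g, hg⟩, Subgroup.mem_sup_left hgK, rfl⟩)
        (fun g hg hgK => ⟨⟨g, hg⟩, Subgroup.mem_sup_right hgK, rfl⟩) x.2
      rw [← Subtype.ext he]
      exact hy
    · rw [show K₁.subgroupOf (alternatingGroup α) ⊓ K₂.subgroupOf (alternatingGroup α) =
          (K₁ ⊓ K₂).subgroupOf (alternatingGroup α) from rfl,
        index_subgroupOf_of_not_le hA (not_le_of_odd_index hA hodd)]
      exact hodd
  · refine forall_not_uniq ?_ ?_ ?_ hodd R
    · rintro rfl; exact h1.elim fun g hg => hg.2 trivial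
    · rintro rfl; exact h2.elim fun g hg => hg.2 trivial
    · refine (Alt.eq_alt_or_top_of_alt_le (hgen (K₁ ⊔ K₂) (fun g _ h => Subgroup.mem_sup_left h)
        (fun g _ h => Subgroup.mem_sup_right h))).resolve_left fun e => ?_
      exact not_le_of_odd_index hA hodd ((inf_le_left.trans le_sup_left).trans e.le)

theorem mem_stabilizer_of_maps {s : Set α} {g : Perm α} (h : ∀ x ∈ s, g x ∈ s) :
    g ∈ stabilizer (Perm α) s := by
  rw [mem_stabilizer_iff]
  refine Set.eq_of_subset_of_ncard_le ?_ (by rw [Set.ncard_smul_set])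
  rintro _ ⟨x, hx, rfl⟩
  exact h x hx

theorem maps_of_mem_stabilizer {s : Set α} {g : Perm α} (h : g ∈ stabilizer (Perm α) s) {x : α}
    (hx : x ∈ s) : g x ∈ s := by
  rw [mem_stabilizer_iff] at h
  rw [← h]
  exact ⟨x, hx, rfl⟩

theorem cyc3_mem_stabilizer {s : Set α} {a b c : α} (hab : a ≠ b) (hac : a ≠ c) (hbc : b ≠ c)
    (h : (a ∈ s ∧ b ∈ s ∧ c ∈ s) ∨ (a ∉ s ∧ b ∉ s ∧ c ∉ s)) :
    Alt.cyc3 a b c ∈ stabilizer (Perm α) s := by
  refine mem_stabilizer_of_maps fun x hx => ?_
  by_cases hxa : x = a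
  · subst hxa
    rw [Alt.cyc3_apply_left hab hac]
    exact (h.resolve_right fun h' => h'.1 hx).2.1
  by_cases hxb : x = b
  · subst hxb
    rw [Alt.cyc3_apply_mid hac hbc]
    exact (h.resolve_right fun h' => h'.2.1 hx).2.2
  by_cases hxc : x = c
  · subst hxc
    rw [Alt.cyc3_apply_right]
    exact (h.resolve_right fun h' => h'.2.2 hx).1
  rwa [Alt.cyc3_apply_other hxa hxb hxc]

/-! ### Odd degree, not one more than a power of two -/

theorem ans_false_odd (n k : ℕ) (hn : n = Fintype.card α) (hk : 2 ^ k + 3 ≤ n)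
    (hk' : n < 2 ^ (k + 1)) (hodd : Odd n) : Ans α False := by
  subst hn
  have hk2 : 3 < 2 ^ k := by rw [pow_succ] at hk'; omega
  haveI : Nontrivial α := Fintype.one_lt_card_iff_nontrivial.1 (by omega)
  obtain ⟨A, hA⟩ : ∃ A : Finset α, A.card = 2 ^ k := by
    obtain ⟨A, -, hA⟩ := Finset.exists_subset_card_eq (s := (Finset.univ : Finset α))
      (n := 2 ^ k) (by rw [Finset.card_univ]; omega)
    exact ⟨A, hA⟩
  set s : Set α := (A : Set α) with hs
  have hcs : s.ncard = 2 ^ k := by rw [hs, Set.ncard_coe_finset, hA]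
  have hcc : sᶜ.ncard = Fintype.card α - 2 ^ k := by
    rw [Set.ncard_compl, Nat.card_eq_fintype_card, hcs]
  obtain ⟨f, hf⟩ := Set.nonempty_of_ncard_ne_zero (s := sᶜ) (by omega)
  obtain ⟨c, hc, hcf⟩ := Set.exists_ne_of_one_lt_ncard (s := sᶜ) (by omega) f
  obtain ⟨d, hd, hdf, hdc⟩ : ∃ d ∈ sᶜ, d ≠ f ∧ d ≠ c := by
    by_contra! h
    have hle := Set.ncard_le_ncard (s := sᶜ) (t := {f, c}) fun x hx => by
      by_cases hxf : x = f
      · exact Or.inl hxf
      · exact Or.inr (h x hx hxf)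
    have h2 : ({f, c} : Set α).ncard ≤ 2 := (Set.ncard_insert_le _ _).trans (by simp)
    omega
  obtain ⟨a, ha⟩ := Set.nonempty_of_ncard_ne_zero (s := s) (by omega)
  have hac : a ≠ c := fun e => hc (e ▸ ha)
  have had : a ≠ d := fun e => hd (e ▸ ha)
  refine ans_false (stabilizer (Perm α) s) (stabilizer (Perm α) f) ?_
    ⟨Alt.cyc3 a c d, Alt.cyc3_mem hac had hdc.symm, fun h => hc (by
      simpa [Alt.cyc3_apply_left hac had] using maps_of_mem_stabilizer h ha)⟩
    ⟨Alt.cyc3 f c d, Alt.cyc3_mem hcf.symm hdf.symm hdc.symm, fun h => hcf (by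
      rw [mem_stabilizer_iff, Perm.smul_def, Alt.cyc3_apply_left hcf.symm hdf.symm] at h
      exact h)⟩ ?_
  · rw [← Subgroup.relIndex_mul_index (inf_le_left : stabilizer (Perm α) s ⊓ stabilizer (Perm α) f ≤ _),
      Subgroup.inf_relIndex_left, index_stabilizer_set, hcs]
    have horb : (stabilizer (Perm α) f).relIndex (stabilizer (Perm α) s) = sᶜ.ncard := by
      have e : (stabilizer (Perm α) f).subgroupOf (stabilizer (Perm α) s) =
          stabilizer (stabilizer (Perm α) s) f := by ext g; rfl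
      show ((stabilizer (Perm α) f).subgroupOf (stabilizer (Perm α) s)).index = _
      rw [e, index_stabilizer]
      congr 1
      ext y
      constructor
      · rintro ⟨g, rfl⟩ hy
        refine hf ?_
        have := maps_of_mem_stabilizer (inv_mem g.2) hy
        simpa [Subgroup.smul_def] using this
      · intro hy
        refine ⟨⟨Equiv.swap f y, mem_stabilizer_of_maps fun x hx => ?_⟩, ?_⟩
        · rwa [Equiv.swap_apply_of_ne_of_ne (fun e : x = f => hf (e ▸ hx)) (fun e : x = y => hy (e ▸ hx))]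
        · exact Equiv.swap_apply_left f y
    rw [horb, hcc]
    have hch := odd_choose_two_pow_add (k := k) (r := Fintype.card α - 2 ^ k) (by rw [pow_succ] at hk'; omega)
    rw [show 2 ^ k + (Fintype.card α - 2 ^ k) = Fintype.card α by omega] at hch
    refine Odd.mul ?_ hch
    rw [Nat.odd_iff] at hodd ⊢
    have : Even (2 ^ k) := (Nat.even_pow' (by rintro rfl; simp at hk2)).2 even_two
    rw [Nat.even_iff] at this
    omega
  · intro M h1 h2
    refine alt_le_of_cycles M ({f}ᶜ) ?_ ?_ ?_ ?_ ?_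
    · rw [Set.ncard_compl, Set.ncard_singleton, Nat.card_eq_fintype_card]; omega
    · rw [Set.ncard_compl, Set.ncard_singleton, Nat.card_eq_fintype_card]; omega
    · intro a b c ha hb hc hab hac hbc
      refine h2 _ (Alt.cyc3_mem hab hac hbc) ?_
      rw [mem_stabilizer_iff, Perm.smul_def]
      exact Alt.cyc3_apply_other (Ne.symm ha) (Ne.symm hb) (Ne.symm hc)
    · intro y
      by_cases hy : y = f
      · refine ⟨Alt.cyc3 f c d, h1 _ (Alt.cyc3_mem hcf.symm hdf.symm hdc.symm)
          (cyc3_mem_stabilizer hcf.symm hdf.symm hdc.symm (Or.inr ⟨hf, hc, hd⟩)), ?_⟩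
        rw [hy, Alt.cyc3_apply_left hcf.symm hdf.symm]
        exact hcf
      · exact ⟨1, one_mem _, hy⟩
    · intro h
      rw [Set.ncard_compl, Set.ncard_singleton, Nat.card_eq_fintype_card] at h
      omega

/-! ### Even degree -/

section Pairs

variable {m : ℕ}

/-- The union of the pairs indexed by `s`. -/
def union (s : Set (Fin m)) : Set (Pairing m 0) := {x | ∃ i ∈ s, ∃ b, x = .inl (i, b)}

theorem mem_union {s : Set (Fin m)} {i : Fin m} {b : Bool} :
    (Sum.inl (i, b) : Pairing m 0) ∈ union s ↔ i ∈ s := by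
  constructor
  · rintro ⟨j, hj, c, h⟩
    have e : i = j := congrArg Prod.fst (Sum.inl_injective h)
    exact e ▸ hj
  · exact fun h => ⟨i, h, b, rfl⟩

theorem exists_inl (x : Pairing m 0) : ∃ i b, x = .inl (i, b) := by
  rcases x with ⟨i, b⟩ | z
  · exact ⟨i, b, rfl⟩
  · exact z.elim0

theorem ncard_union (s : Set (Fin m)) : (union s).ncard = 2 * s.ncard := by
  have : union s = (Sum.inl : Fin m × Bool → Pairing m 0) '' (s ×ˢ (Set.univ : Set Bool)) := by
    ext x
    obtain ⟨i, b, rfl⟩ := exists_inl x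
    simp [mem_union]
  rw [this, Set.ncard_image_of_injective _ Sum.inl_injective, Set.ncard_prod, Set.ncard_univ,
    Nat.card_eq_fintype_card, Fintype.card_bool, mul_comm]

/-- Preserving a set or exchanging it with its complement. -/
def stab2 {β : Type*} (s : Set β) : Subgroup (Perm β) where
  carrier := {g | g • s = s ∧ g • sᶜ = sᶜ ∨ g • s = sᶜ ∧ g • sᶜ = s}
  one_mem' := Or.inl ⟨one_smul _ _, one_smul _ _⟩
  mul_mem' := by
    rintro g h (⟨a, b⟩ | ⟨a, b⟩) (⟨c, d⟩ | ⟨c, d⟩) <;>
      simp only [Set.mem_ofPred_eq, mul_smul, a, b, c, d, and_self, true_or, or_true]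
  inv_mem' := by
    rintro g (⟨a, b⟩ | ⟨a, b⟩)
    · exact Or.inl ⟨inv_smul_eq_iff.2 a.symm, inv_smul_eq_iff.2 b.symm⟩
    · exact Or.inr ⟨inv_smul_eq_iff.2 b.symm, inv_smul_eq_iff.2 a.symm⟩

theorem stabilizer_le_stab2 {β : Type*} (s : Set β) : stabilizer (Perm β) s ≤ stab2 s := by
  intro g hg
  rw [mem_stabilizer_iff] at hg
  exact Or.inl ⟨hg, by rw [Set.smul_set_compl, hg]⟩

theorem pairs_maps {s : Set (Fin m)} {g : pairCentralizer m 0}
    (h : pairHom m 0 g • s = s) :
    (g : Perm (Pairing m 0)) • union s = union s := by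
  refine mem_stabilizer_iff.1 (mem_stabilizer_of_maps fun x hx => ?_)
  obtain ⟨i, hi, b, rfl⟩ := hx
  obtain ⟨c, hc⟩ := pairImage_spec g.2 i b
  rw [hc, mem_union, ← h]
  exact ⟨i, hi, rfl⟩

theorem index_map_comap (H : Subgroup (Perm (Fin m))) :
    ((H.comap (pairHom m 0)).map (pairCentralizer m 0).subtype).index =
      H.index * (pairCentralizer m 0).index := by
  rw [Subgroup.index_map_subtype, Subgroup.index_comap_of_surjective _ pairHom_surjective]

theorem odd_pairIndex : Odd (pairCentralizer m 0).index :=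
  Nat.not_even_iff_odd.1 fun h =>
    not_two_dvd_pairCentralizer_index (k := m) (le_of_lt Nat.one_pos) (even_iff_two_dvd.1 h)

/-- The common part of both even cases. -/
theorem ans_false_pairs (hm : 4 ≤ m) (s : Set (Fin m)) (h2 : 2 ≤ s.ncard) (hlt : s.ncard < m)
    (hle : m ≤ 2 * s.ncard) (K₁ : Subgroup (Perm (Pairing m 0)))
    (hK₁ : stabilizer (Perm (Pairing m 0)) (union s) ≤ K₁)
    (hK₁' : ∃ g ∈ alternatingGroup (Pairing m 0), g ∉ K₁)
    (H : Subgroup (Perm (Fin m))) (hH : Odd H.index)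
    (hH₁ : (H.comap (pairHom m 0)).map (pairCentralizer m 0).subtype ≤ K₁) :
    Ans (Pairing m 0) False := by
  classical
  haveI : Nontrivial (Pairing m 0) :=
    ⟨⟨.inl (⟨0, by omega⟩, false), .inl (⟨0, by omega⟩, true), by simp⟩⟩
  obtain ⟨i, hi⟩ := Set.nonempty_of_ncard_ne_zero (s := s) (by omega)
  obtain ⟨i', hi', hne⟩ := Set.exists_ne_of_one_lt_ncard (s := s) (by omega) i
  obtain ⟨j, hj⟩ : ∃ j, j ∉ s := by
    by_contra! h
    rw [show s = Set.univ from Set.eq_univ_of_forall h, Set.ncard_univ, Nat.card_eq_fintype_card,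
      Fintype.card_fin] at hlt
    omega
  let x : Pairing m 0 := .inl (i, false)
  let y : Pairing m 0 := .inl (i', false)
  let z : Pairing m 0 := .inl (i, true)
  have hxy : x ≠ y := by simp [x, y, hne.symm]
  have hxz : x ≠ z := by simp [x, z]
  have hyz : y ≠ z := by simp [y, z]
  refine ans_false K₁ (pairCentralizer m 0) ?_ hK₁'
    ⟨Alt.cyc3 x y z, Alt.cyc3_mem hxy hxz hyz, fun h => ?_⟩ ?_
  · have hle' : (H.comap (pairHom m 0)).map (pairCentralizer m 0).subtype ≤
        K₁ ⊓ pairCentralizer m 0 := le_inf hH₁ (Subgroup.map_subtype_le _)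
    have hoddH : Odd ((H.comap (pairHom m 0)).map (pairCentralizer m 0).subtype).index := by
      rw [index_map_comap]
      exact hH.mul odd_pairIndex
    obtain ⟨c, hc⟩ := Subgroup.index_dvd_of_le hle'
    rw [hc] at hoddH
    exact (Nat.odd_mul.1 hoddH).1
  · have := mem_pairCentralizer_iff.1 h x
    rw [pairInv_inl, Alt.cyc3_apply_left hxy hxz] at this
    rw [show (Sum.inl (i, !false) : Pairing m 0) = z from rfl, Alt.cyc3_apply_right] at this
    simp [x, y, hne.symm] at this
  · intro M h1 h2'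
    have hlift : ∀ τ : Perm (Fin m), (pairLift τ : Perm (Pairing m 0)) ∈ M := fun τ =>
      h2' _ (mem_alternatingGroup.2 (sign_pairLift τ)) (pairLift_mem τ)
    have hcard : Fintype.card (Pairing m 0) = 2 * m := by simp [mul_comm]
    refine alt_le_of_cycles M (union s) ?_ ?_ ?_ ?_ ?_
    · rw [ncard_union]; omega
    · rw [hcard, ncard_union]; omega
    · intro a b c ha hb hc hab hac hbc
      exact h1 _ (Alt.cyc3_mem hab hac hbc)
        (hK₁ (cyc3_mem_stabilizer hab hac hbc (Or.inl ⟨ha, hb, hc⟩)))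
    · intro w
      obtain ⟨l, b, rfl⟩ := exists_inl w
      refine ⟨_, hlift (Equiv.swap l i), ?_⟩
      show (Sum.inl (Equiv.swap l i l, b) : Pairing m 0) ∈ union s
      rw [Equiv.swap_apply_left, mem_union]
      exact hi
    · intro _
      refine ⟨_, hlift (Equiv.swap i j), ⟨.inl (i', false), mem_union.2 hi', ?_⟩,
        .inl (i, false), mem_union.2 hi, ?_⟩
      · show (Sum.inl (Equiv.swap i j i', false) : Pairing m 0) ∈ union s
        rw [Equiv.swap_apply_of_ne_of_ne hne (fun e : i' = j => hj (e ▸ hi')), mem_union]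
        exact hi'
      · show (Sum.inl (Equiv.swap i j i, false) : Pairing m 0) ∉ union s
        rw [Equiv.swap_apply_left, mem_union]
        exact hj

theorem exists_two_inside {s : Set (Fin m)} (h2 : 2 ≤ s.ncard) (hlt : s.ncard < m) :
    ∃ a b c : Pairing m 0, a ≠ b ∧ a ≠ c ∧ b ≠ c ∧ a ∈ union s ∧ b ∉ union s ∧ c ∈ union s := by
  obtain ⟨i, hi⟩ := Set.nonempty_of_ncard_ne_zero (s := s) (by omega)
  obtain ⟨j, hj⟩ : ∃ j, j ∉ s := by
    by_contra! h
    rw [show s = Set.univ from Set.eq_univ_of_forall h, Set.ncard_univ, Nat.card_eq_fintype_card,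
      Fintype.card_fin] at hlt
    omega
  have hij : i ≠ j := fun e => hj (e ▸ hi)
  exact ⟨.inl (i, false), .inl (j, false), .inl (i, true), by simp [hij], by simp, by simp,
    mem_union.2 hi, by rwa [mem_union], mem_union.2 hi⟩

theorem ans_false_even {k r : ℕ} (hr : 0 < r) (hr' : r < 2 ^ k) (hm : m = 2 ^ k + r) (hm4 : 4 ≤ m) :
    Ans (Pairing m 0) False := by
  have hk : 2 ≤ 2 ^ k := by omega
  obtain ⟨A, -, hA⟩ := Finset.exists_subset_card_eq (s := (Finset.univ : Finset (Fin m)))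
    (n := 2 ^ k) (by rw [Finset.card_univ, Fintype.card_fin]; omega)
  have hcs : (A : Set (Fin m)).ncard = 2 ^ k := by rw [Set.ncard_coe_finset, hA]
  obtain ⟨a, b, c, hab, hac, hbc, ha, hb, -⟩ :=
    exists_two_inside (m := m) (s := (A : Set (Fin m))) (by omega) (by omega)
  refine ans_false_pairs hm4 (A : Set (Fin m)) (by omega) (by omega) (by omega)
    (stabilizer (Perm (Pairing m 0)) (union (A : Set (Fin m)))) le_rfl
    ⟨Alt.cyc3 a b c, Alt.cyc3_mem hab hac hbc, fun h => hb (by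
      simpa [Alt.cyc3_apply_left hab hac] using maps_of_mem_stabilizer h ha)⟩
    (stabilizer (Perm (Fin m)) (A : Set (Fin m))) ?_ ?_
  · rw [index_stabilizer_set, hcs, Fintype.card_fin, hm]
    exact odd_choose_two_pow_add hr'
  · rintro _ ⟨g, hg, rfl⟩
    exact mem_stabilizer_iff.2 (pairs_maps (mem_stabilizer_iff.1 hg))

theorem ans_false_pow {k : ℕ} (hm : m = 2 * 2 ^ k) (hm4 : 4 ≤ m) : Ans (Pairing m 0) False := by
  classical
  have hk : 2 ≤ 2 ^ k := by omega
  obtain ⟨A, -, hA⟩ := Finset.exists_subset_card_eq (s := (Finset.univ : Finset (Fin m)))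
    (n := 2 ^ k) (by rw [Finset.card_univ, Fintype.card_fin]; omega)
  set s : Set (Fin m) := (A : Set (Fin m)) with hs
  have hcs : s.ncard = 2 ^ k := by rw [hs, Set.ncard_coe_finset, hA]
  obtain ⟨a, b, c, hab, hac, hbc, ha, hb, hc⟩ :=
    exists_two_inside (m := m) (s := s) (by omega) (by omega)
  refine ans_false_pairs hm4 s (by omega) (by omega) (by omega)
    (stab2 (union s)) (stabilizer_le_stab2 _)
    ⟨Alt.cyc3 a b c, Alt.cyc3_mem hab hac hbc, ?_⟩ (stab2 s) ?_ ?_
  · rintro (⟨h, -⟩ | ⟨h, -⟩)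
    · exact hb (h ▸ ⟨a, ha, Alt.cyc3_apply_left hab hac⟩)
    · have : a ∈ Alt.cyc3 a b c • union s := ⟨c, hc, Alt.cyc3_apply_right a b c⟩
      rw [h] at this
      exact this ha
  · -- the index of the partition stabiliser
    obtain ⟨e⟩ : Nonempty ({x // x ∈ s} ≃ {x // x ∈ sᶜ}) := Cardinal.eq.1 (by
      rw [Cardinal.mk_fintype, Cardinal.mk_fintype, Nat.cast_inj, ← Nat.card_eq_fintype_card,
        ← Nat.card_eq_fintype_card]
      show Nat.card s = Nat.card (sᶜ : Set (Fin m))
      rw [Nat.card_coe_set_eq, Nat.card_coe_set_eq, Set.ncard_compl, hcs, Nat.card_eq_fintype_card,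
        Fintype.card_fin]
      omega)
    let w := e.extendSubtype
    have hw : w • s = sᶜ := by
      refine Set.eq_of_subset_of_ncard_le ?_ ?_
      · rintro _ ⟨x, hx, rfl⟩; exact e.extendSubtype_mem x hx
      · rw [Set.ncard_smul_set, Set.ncard_compl, hcs, Nat.card_eq_fintype_card, Fintype.card_fin]
        omega
    have hw2 : w • sᶜ = s := by rw [Set.smul_set_compl, hw, compl_compl]
    have hwm : w ∈ stab2 s := Or.inr ⟨hw, hw2⟩
    have hne : s ≠ sᶜ := fun he => by
      obtain ⟨x, hx⟩ := Set.nonempty_of_ncard_ne_zero (s := s) (by omega)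
      exact (he ▸ hx : x ∈ sᶜ) hx
    have h2 : (stabilizer (Perm (Fin m)) s).relIndex (stab2 s) = 2 := by
      rw [Subgroup.relIndex, Subgroup.index_eq_two_iff]
      refine ⟨⟨w, hwm⟩, fun g => ?_⟩
      show Xor' ((g : Perm (Fin m)) * w ∈ stabilizer (Perm (Fin m)) s) _
      rcases g.2 with ⟨h, h'⟩ | ⟨h, h'⟩
      · refine Or.inr ⟨(h : _), fun e' => hne ?_⟩
        rw [mem_stabilizer_iff, mul_smul, hw, h'] at e'
        exact e'.symm
      · refine Or.inl ⟨?_, fun e' => hne ?_⟩
        · rw [mem_stabilizer_iff, mul_smul, hw, h']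
        · rw [Subgroup.mem_subgroupOf, mem_stabilizer_iff, h] at e'
          exact e'.symm
    have hi := Subgroup.relIndex_mul_index (stabilizer_le_stab2 s)
    have hch : Nat.choose m (2 ^ k) = 2 * Nat.choose (2 * 2 ^ k - 1) (2 ^ k) := by
      rw [hm]; exact (odd_choose_central_half (k := k)).2
    rw [h2, index_stabilizer_set, hcs, Fintype.card_fin, hch] at hi
    rw [Nat.eq_of_mul_eq_mul_left two_pos hi]
    exact (odd_choose_central_half (k := k)).1
  · rintro _ ⟨g, hg, rfl⟩
    rcases hg with ⟨h, -⟩ | ⟨h, -⟩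
    · exact stabilizer_le_stab2 _ (mem_stabilizer_iff.2 (pairs_maps h))
    · have hgu : (g : Perm (Pairing m 0)) • union s = (union s)ᶜ := by
        refine Set.eq_of_subset_of_ncard_le ?_ ?_
        · rintro _ ⟨v, hv, rfl⟩
          obtain ⟨i, b, rfl⟩ := exists_inl v
          rw [mem_union] at hv
          obtain ⟨d, hd⟩ := pairImage_spec g.2 i b
          show (g : Perm (Pairing m 0)) (.inl (i, b)) ∉ union s
          rw [hd, mem_union, ← Set.mem_compl_iff, ← h]
          exact ⟨i, hv, rfl⟩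
        · rw [Set.ncard_smul_set, Set.ncard_compl, ncard_union, Nat.card_eq_fintype_card, hcs]
          simp
          omega
      refine Or.inr ⟨hgu, ?_⟩
      rw [Set.smul_set_compl]
      show ((g : Perm (Pairing m 0)) • union s)ᶜ = _
      rw [hgu, compl_compl]

end Pairs

/-! ### One more than a power of two -/

section Positive

variable {m : ℕ}

local notation "Ω" => Pairing m 1

/-- The point outside the pairs. -/
def pt : Pairing m 1 := .inr 0

theorem pairs_fix_pt {g : Perm Ω} (hg : g ∈ pairCentralizer m 1) : g pt = pt := by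
  have h := mem_pairCentralizer_iff.1 hg (pt : Ω)
  rw [show pairInv m 1 (pt : Ω) = pt from rfl] at h
  exact pairInv_fixed_subsingleton le_rfl h.symm rfl

theorem index_two_point (x : Ω) (hx : x ≠ pt) :
    2 * m ∣ (stabilizer (Perm Ω) (pt : Ω) ⊓ stabilizer (Perm Ω) x).index := by
  rw [← Subgroup.relIndex_mul_index (inf_le_left : stabilizer (Perm Ω) (pt : Ω) ⊓ stabilizer (Perm Ω) x ≤ _),
    Subgroup.inf_relIndex_left]
  refine Dvd.dvd.mul_right ?_ _
  have e : (stabilizer (Perm Ω) x).subgroupOf (stabilizer (Perm Ω) (pt : Ω)) =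
      stabilizer (stabilizer (Perm Ω) (pt : Ω)) x := by ext g; rfl
  show 2 * m ∣ ((stabilizer (Perm Ω) x).subgroupOf (stabilizer (Perm Ω) (pt : Ω))).index
  rw [e, index_stabilizer]
  have : orbit (stabilizer (Perm Ω) (pt : Ω)) x = ({pt} : Set Ω)ᶜ := by
    ext y
    constructor
    · rintro ⟨g, rfl⟩ (h : g • x = pt)
      refine hx ((g : Perm Ω).injective ?_)
      exact h.trans (mem_stabilizer_iff.1 g.2).symm
    · intro hy
      refine ⟨⟨Equiv.swap x y, ?_⟩, Equiv.swap_apply_left x y⟩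
      rw [mem_stabilizer_iff, Perm.smul_def]
      exact Equiv.swap_apply_of_ne_of_ne (Ne.symm hx) (Ne.symm hy)
  rw [this, Set.ncard_compl, Set.ncard_singleton, Nat.card_eq_fintype_card]
  simp [mul_comm]

/-- A transitive extension of the group of the pairs contains the alternating group. -/
theorem prim_of_transitive_off {G : Type*} [Group G] [MulAction G Ω]
    (hm : 2 ≤ m) (L : Subgroup G) (g : G) (hg : g ∈ L) (hgm : g • (pt : Ω) ≠ pt)
    (htr : ∀ x y : Ω, x ≠ pt → y ≠ pt → ∃ r ∈ L, r • (pt : Ω) = pt ∧ r • x = y) :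
    IsPretransitive L Ω ∧ IsPreprimitive L Ω := by
  have move : ∀ y : Ω, ∃ l : L, l • (pt : Ω) = y := by
    intro y
    by_cases hy : y = pt
    · exact ⟨1, by rw [hy, one_smul]⟩
    obtain ⟨r, hr, -, hr'⟩ := htr _ y hgm hy
    exact ⟨⟨r * g, mul_mem hr hg⟩, by show (r * g) • pt = y; rw [mul_smul, hr']⟩
  haveI : IsPretransitive L Ω := ⟨fun y z => by
    obtain ⟨a, ha⟩ := move y
    obtain ⟨b, hb⟩ := move z
    exact ⟨b * a⁻¹, by rw [mul_smul, ← ha, inv_smul_smul, hb]⟩⟩
  refine ⟨inferInstance, IsPreprimitive.of_isTrivialBlock_base pt fun {B} hpB hB => ?_⟩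
  by_cases h : ∃ x ∈ B, x ≠ pt
  · obtain ⟨x, hx, hxne⟩ := h
    refine Or.inr (Set.eq_univ_of_forall fun y => ?_)
    by_cases hy : y = pt
    · exact hy ▸ hpB
    obtain ⟨r, hr, hr1, hr2⟩ := htr x y hxne hy
    rcases hB.smul_eq_or_disjoint (⟨r, hr⟩ : L) with he | hd
    · rw [← he, ← hr2]
      exact Set.smul_mem_smul_set (a := (⟨r, hr⟩ : L)) hx
    · have : r • (pt : Ω) ∈ (⟨r, hr⟩ : L) • B := Set.smul_mem_smul_set (a := (⟨r, hr⟩ : L)) hpB
      rw [hr1] at this
      exact absurd hpB (fun hpB' => Set.disjoint_left.1 hd this hpB')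
  · push Not at h
    exact Or.inl fun a ha b hb => by rw [h a ha, h b hb]

/-- An element of the kernel of the action on the pairs lies in every Sylow subgroup of the
centraliser of the pairing. -/
theorem kernel_le_sylow {G : Type*} [Group G] [Finite G] (ι : G →* Perm Ω) (hι : Function.Injective ι)
    (R : Sylow 2 G) (hR : ∀ r ∈ (R : Subgroup G), ι r ∈ pairCentralizer m 1) (x : G)
    (hx : ι x ∈ pairCentralizer m 1) (hker : pairHom m 1 ⟨ι x, hx⟩ = 1) : x ∈ (R : Subgroup G) := by
  let N : Subgroup G := (((pairHom m 1).ker).map (pairCentralizer m 1).subtype).comap ι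
  have hN : IsPGroup 2 N := by
    intro y
    obtain ⟨c, hc, hcy⟩ := y.2
    obtain ⟨j, hj⟩ := isPGroup_pairHom_ker (k := m) (e := 1) le_rfl ⟨c, hc⟩
    refine ⟨j, Subtype.ext (hι ?_)⟩
    have := congrArg (fun w : (pairHom m 1).ker => ((w : pairCentralizer m 1) : Perm Ω)) hj
    simp only [Subgroup.coe_pow, Subgroup.coe_one] at this
    rw [Subgroup.coe_pow, map_pow, Subgroup.coe_one, map_one, ← hcy]
    exact this
  have hnorm : (R : Subgroup G) ≤ Subgroup.normalizer (N : Set G) := by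
    have key : ∀ r ∈ (R : Subgroup G), ∀ n ∈ N, r * n * r⁻¹ ∈ N := by
      intro r hr n hn
      obtain ⟨c, hc, hcn⟩ := Subgroup.mem_map.1 (Subgroup.mem_comap.1 hn)
      let d : pairCentralizer m 1 := ⟨ι r, hR r hr⟩
      have hd : d * c * d⁻¹ ∈ (pairHom m 1).ker :=
        (MonoidHom.normal_ker (pairHom m 1)).conj_mem c hc d
      refine Subgroup.mem_comap.2 (Subgroup.mem_map.2 ⟨d * c * d⁻¹, hd, ?_⟩)
      simp only [map_mul, map_inv, ← hcn, Subgroup.coe_subtype]
      rfl
    intro r hr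
    rw [Subgroup.mem_normalizer_iff]
    refine fun n => ⟨key r hr n, fun h => ?_⟩
    have := key r⁻¹ (inv_mem hr) _ h
    simpa [mul_assoc] using this
  have hsup : IsPGroup 2 (((R : Subgroup G) ⊔ N : Subgroup G)) :=
    R.2.to_sup_of_normal_right' hN hnorm
  exact (R.3 hsup le_sup_left).le (Subgroup.mem_sup_right ⟨⟨ι x, hx⟩, hker, rfl⟩)

theorem alt_le_of_flips (M : Subgroup (Perm Ω)) (hprim : IsPreprimitive M Ω) (h4 : 4 ≤ m)
    (P₀ P₁ : Fin m) (hP01 : P₀ ≠ P₁)
    (mem2 : ∀ a b : Fin m, a ≠ b →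
      Equiv.swap (Sum.inl (a, false) : Ω) (.inl (a, true)) *
        Equiv.swap (Sum.inl (b, false) : Ω) (.inl (b, true)) ∈ M) :
    alternatingGroup Ω ≤ M := by
  classical
  let flip : Fin m → Perm Ω := fun i => Equiv.swap (.inl (i, false)) (.inl (i, true))
  haveI := hprim.toIsPretransitive
  let a₀ : Ω := .inl (P₀, false)
  obtain ⟨⟨σ, hσM⟩, hh⟩ := MulAction.exists_smul_eq M a₀ (pt : Ω)
  have hh' : σ a₀ = pt := hh
  let x₁ : Ω := σ (.inl (P₀, true))
  let x₂ : Ω := σ (.inl (P₁, false))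
  let x₃ : Ω := σ (.inl (P₁, true))
  have hne1 : x₁ ≠ pt := hh' ▸ fun e => by simpa [a₀] using σ.injective e
  have hne2 : x₂ ≠ pt := hh' ▸ fun e => by simpa [a₀, hP01.symm] using σ.injective e
  have hne3 : x₃ ≠ pt := hh' ▸ fun e => by simpa [a₀, hP01.symm] using σ.injective e
  have h12 : x₁ ≠ x₂ := fun e => by simpa [hP01] using σ.injective e
  have h13 : x₁ ≠ x₃ := fun e => by simpa [hP01] using σ.injective e
  have h23 : x₂ ≠ x₃ := fun e => by simpa using σ.injective e
  have hgag : Equiv.swap pt x₁ * Equiv.swap x₂ x₃ ∈ M := by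
    have := mul_mem (mul_mem hσM (mem2 P₀ P₁ hP01)) (inv_mem hσM)
    rw [show σ * (flip P₀ * flip P₁) * σ⁻¹ = (σ * flip P₀ * σ⁻¹) * (σ * flip P₁ * σ⁻¹) by group,
      show σ * flip P₀ * σ⁻¹ = _ from (Equiv.swap_apply_apply σ _ _).symm,
      show σ * flip P₁ * σ⁻¹ = _ from (Equiv.swap_apply_apply σ _ _).symm,
      show σ (Sum.inl (P₀, false)) = pt from hh'] at this
    exact this
  obtain ⟨u, hu, hu', hufree⟩ : ∃ u : Fin m, (∃ b, (Sum.inl (u, b) : Ω) ∈ ({x₁, x₂, x₃} : Set Ω)) ∧
      (∃ b, (Sum.inl (u, b) : Ω) ∉ ({x₁, x₂, x₃} : Set Ω)) ∧ True := by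
    by_contra hcon
    have hcl : ∀ l b, (Sum.inl (l, b) : Ω) ∈ ({x₁, x₂, x₃} : Set Ω) →
        (Sum.inl (l, !b) : Ω) ∈ ({x₁, x₂, x₃} : Set Ω) := by
      intro l b hb
      by_contra hnb
      exact hcon ⟨l, ⟨b, hb⟩, ⟨!b, hnb⟩, trivial⟩
    obtain ⟨l₁, b₁, e₁⟩ : ∃ l b, x₁ = Sum.inl (l, b) := by
      rcases hx : x₁ with ⟨l, b⟩ | z
      · exact ⟨l, b, rfl⟩
      · exact absurd (hx.trans (congrArg Sum.inr (Fin.fin_one_eq_zero z))) hne1
    obtain ⟨l₂, b₂, e₂⟩ : ∃ l b, x₂ = Sum.inl (l, b) := by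
      rcases hx : x₂ with ⟨l, b⟩ | z
      · exact ⟨l, b, rfl⟩
      · exact absurd (hx.trans (congrArg Sum.inr (Fin.fin_one_eq_zero z))) hne2
    obtain ⟨l₃, b₃, e₃⟩ : ∃ l b, x₃ = Sum.inl (l, b) := by
      rcases hx : x₃ with ⟨l, b⟩ | z
      · exact ⟨l, b, rfl⟩
      · exact absurd (hx.trans (congrArg Sum.inr (Fin.fin_one_eq_zero z))) hne3
    have c1 := hcl l₁ b₁ (by simp [e₁])
    have c2 := hcl l₂ b₂ (by simp [e₂])
    have c3 := hcl l₃ b₃ (by simp [e₃])
    simp only [e₁, e₂, e₃, Set.mem_insert_iff, Set.mem_singleton_iff, Sum.inl.injEq,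
      Prod.mk.injEq] at c1 c2 c3 h12 h13 h23
    cases b₁ <;> cases b₂ <;> cases b₃ <;> simp_all
  obtain ⟨v, hv⟩ : ∃ v : Fin m, ∀ b, (Sum.inl (v, b) : Ω) ∉ ({x₁, x₂, x₃} : Set Ω) := by
    by_contra! hall
    choose F hF using hall
    have hinj : Function.Injective fun v => (Sum.inl (v, F v) : Ω) := fun a b e =>
      congrArg Prod.fst (Sum.inl_injective e)
    have : Nat.card (Fin m) ≤ Nat.card ({x₁, x₂, x₃} : Set Ω) :=
      Nat.card_le_card_of_injective (fun v => ⟨_, hF v⟩) fun a b e => hinj (congrArg Subtype.val e)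
    rw [Nat.card_coe_set_eq, Nat.card_eq_fintype_card, Fintype.card_fin] at this
    have h3 : ({x₁, x₂, x₃} : Set Ω).ncard ≤ 3 :=
      (Set.ncard_insert_le _ _).trans (Nat.add_le_add_right
        ((Set.ncard_insert_le _ _).trans (by simp)) 1)
    omega
  have huv : u ≠ v := fun e => hu.elim fun b hb => hv b (e ▸ hb)
  obtain ⟨b₀, hb₀⟩ := hu
  obtain ⟨b₁, hb₁⟩ := hu'
  have hflipu : flip u = Equiv.swap (Sum.inl (u, b₀)) (Sum.inl (u, b₁)) := by
    have : b₁ = !b₀ := by
      cases b₀ <;> cases b₁ <;> first | rfl | exact absurd hb₀ hb₁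
    subst this
    cases b₀
    · rfl
    · exact Equiv.swap_comm _ _
  set P : Ω := Sum.inl (u, b₀)
  set P' : Ω := Sum.inl (u, b₁)
  set Q : Ω := Sum.inl (v, false)
  set Q' : Ω := Sum.inl (v, true)
  -- two double transpositions meeting in one point generate a three-cycle
  set p := Equiv.swap pt x₁ * Equiv.swap x₂ x₃
  have hq : Equiv.swap P P' * Equiv.swap Q Q' ∈ M := by
    rw [← hflipu]; exact mem2 u v huv
  set q := Equiv.swap P P' * Equiv.swap Q Q' with hqdef
  have hsep : ∀ w : Ω, w ≠ pt → w ∉ ({x₁, x₂, x₃} : Set Ω) → p w = w := by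
    intro w h0 hw
    simp only [Set.mem_insert_iff, Set.mem_singleton_iff, not_or] at hw
    simp only [p, Perm.mul_apply, Equiv.swap_apply_of_ne_of_ne hw.2.1 hw.2.2,
      Equiv.swap_apply_of_ne_of_ne h0 hw.1]
  have hP' : p P' = P' := hsep _ (by simp [P', pt]) hb₁
  have hQ : p Q = Q := hsep _ (by simp [Q, pt]) (hv _)
  have hQ' : p Q' = Q' := hsep _ (by simp [Q', pt]) (hv _)
  have hpP : p P ∈ ({pt, x₁, x₂, x₃} : Set Ω) ∧ p P ≠ P := by
    simp only [Set.mem_insert_iff, Set.mem_singleton_iff] at hb₀ ⊢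
    rcases hb₀ with e | e | e
    · have h : p x₁ = pt := by
        simp [p, Equiv.swap_apply_of_ne_of_ne h12 h13]
      rw [e, h]
      exact ⟨Or.inl rfl, hne1.symm⟩
    · have h : p x₂ = x₃ := by
        simp [p, Equiv.swap_apply_of_ne_of_ne hne3 h13.symm]
      rw [e, h]
      exact ⟨Or.inr (Or.inr (Or.inr rfl)), h23.symm⟩
    · have h : p x₃ = x₂ := by
        simp [p, Equiv.swap_apply_of_ne_of_ne hne2 h12.symm]
      rw [e, h]
      exact ⟨Or.inr (Or.inr (Or.inl rfl)), h23⟩
  have key : p * q * p⁻¹ * q⁻¹ = Equiv.swap (p P) P' * Equiv.swap P P' := by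
    have e1 : p * q * p⁻¹ = Equiv.swap (p P) P' * Equiv.swap Q Q' := by
      rw [hqdef, show p * (Equiv.swap P P' * Equiv.swap Q Q') * p⁻¹ =
        (p * Equiv.swap P P' * p⁻¹) * (p * Equiv.swap Q Q' * p⁻¹) by group,
        ← Equiv.swap_apply_apply, ← Equiv.swap_apply_apply, hP', hQ, hQ']
    rw [e1, hqdef, mul_inv_rev, Equiv.swap_inv, Equiv.swap_inv, mul_assoc, ← mul_assoc (Equiv.swap Q Q'),
      Equiv.swap_mul_self, one_mul]
  have hc3 : Equiv.Perm.IsThreeCycle (p * q * p⁻¹ * q⁻¹) := by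
    rw [key, Equiv.swap_comm (p P), Equiv.swap_comm P]
    refine Equiv.Perm.isThreeCycle_swap_mul_swap_same ?_ ?_ hpP.2
    · intro e
      have := hpP.1
      rw [← e] at this
      rcases this with h' | h'
      · simp [P', pt] at h'
      · exact hb₁ h'
    · intro e
      exact hb₁ (e ▸ hb₀)
  exact alternatingGroup_le_of_isPreprimitive_of_isThreeCycle_mem hprim hc3
    (mul_mem (mul_mem (mul_mem hgag hq) (inv_mem hgag)) (inv_mem hq))

theorem ans_true (k : ℕ) (hk : 2 ≤ k) (hm : 2 * m = 2 ^ k) : Ans Ω True := by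
  classical
  have hm2 : 2 ≤ m := by
    have := Nat.pow_le_pow_right two_pos hk
    omega
  have hcard : Fintype.card Ω = 2 ^ k + 1 := by simp [mul_comm, ← hm]
  haveI : Nontrivial Ω := Fintype.one_lt_card_iff_nontrivial.1 (by rw [hcard]; have := Nat.one_le_two_pow (n := k); omega)
  have hA : (alternatingGroup Ω).index = 2 := alternatingGroup.index_eq_two
  have hpodd : Odd (pairCentralizer m 1).index :=
    Nat.not_even_iff_odd.1 fun h =>
      not_two_dvd_pairCentralizer_index (k := m) le_rfl (even_iff_two_dvd.1 h)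
  obtain ⟨P₀, P₁, hP01⟩ : ∃ a b : Fin m, a ≠ b := ⟨⟨0, by omega⟩, ⟨1, by omega⟩, by simp⟩
  let flip : Fin m → Perm Ω := fun i => Equiv.swap (.inl (i, false)) (.inl (i, true))
  have hflip : ∀ i, ∃ hc : flip i ∈ pairCentralizer m 1, pairHom m 1 ⟨flip i, hc⟩ = 1 := by
    intro i
    have e : flip i = pairFlip (fun l => decide (l = i)) := by
      refine Equiv.ext ?_
      rintro (⟨l, b⟩ | z)
      · rw [pairFlip_inl]
        by_cases hl : l = i
        · subst hl; cases b <;> simp [flip]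
        · simp only [flip]
          rw [Equiv.swap_apply_of_ne_of_ne (by simp [hl]) (by simp [hl])]
          simp [hl]
      · simp only [flip]
        rw [Equiv.swap_apply_of_ne_of_ne (by simp) (by simp)]
        rfl
    exact ⟨e ▸ pairFlip_mem _, by
      have : (⟨flip i, e ▸ pairFlip_mem _⟩ : pairCentralizer m 1) = ⟨_, pairFlip_mem _⟩ := Subtype.ext e
      rw [this, pairHom_pairFlip]⟩
  refine ⟨?_, ?_⟩
  · -- the alternating group
    set A := alternatingGroup Ω
    intro R
    refine iff_true_intro ?_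
    obtain ⟨R₀, hR₀⟩ := exists_sylow_le ((pairCentralizer m 1).subgroupOf A)
      (by rw [index_subgroupOf_of_not_le hA (not_le_of_odd_index hA hpodd)]; exact hpodd)
    rw [uniq_sylow_iff R R₀]
    have hfix : ∀ r ∈ (R₀ : Subgroup A), r • (pt : Ω) = pt := fun r hr => pairs_fix_pt (hR₀ hr)
    refine uniq_of_forall (M := stabilizer A (pt : Ω)) ?_ hfix ?_
    · intro h
      let a : Ω := .inl (P₀, false)
      let b : Ω := .inl (P₀, true)
      have hab : a ≠ b := by simp [a, b]
      have hmem : (⟨Alt.cyc3 pt a b, Alt.cyc3_mem (by simp [pt, a]) (by simp [pt, b]) hab⟩ : A) ∈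
          stabilizer A (pt : Ω) := by rw [h]; trivial
      rw [mem_stabilizer_iff] at hmem
      rw [show ((⟨Alt.cyc3 pt a b, _⟩ : A) • (pt : Ω)) = Alt.cyc3 pt a b pt from rfl,
        Alt.cyc3_apply_left (by simp [pt, a]) (by simp [pt, b])] at hmem
      exact absurd hmem (by simp [pt, a])
    intro L hL hRL
    by_contra hle
    obtain ⟨g, hg, hgm⟩ := Set.not_subset.1 hle
    rw [SetLike.mem_coe, mem_stabilizer_iff] at hgm
    have htr : ∀ x y : Ω, x ≠ pt → y ≠ pt → ∃ r ∈ L, r • (pt : Ω) = pt ∧ r • x = y := by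
      intro x y hx hy
      have hd : 2 ^ k ∣ (stabilizer A (pt : Ω) ⊓ stabilizer A x).index := by
        rw [show stabilizer A (pt : Ω) ⊓ stabilizer A x =
            (stabilizer (Perm Ω) (pt : Ω) ⊓ stabilizer (Perm Ω) x).subgroupOf A by ext g; rfl,
          index_subgroupOf_of_not_le hA, ← hm]
        · exact index_two_point x hx
        · intro hh
          obtain ⟨i, -, hix⟩ : ∃ i : Fin m, True ∧ ∀ b, x ≠ .inl (i, b) := by
            rcases x with ⟨i, b⟩ | z
            · obtain ⟨j, hj⟩ : ∃ j, j ≠ i := by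
                by_cases h0 : i = P₀
                · exact ⟨P₁, by rw [h0]; exact hP01.symm⟩
                · exact ⟨P₀, Ne.symm h0⟩
              exact ⟨j, trivial, fun c e => hj (congrArg Prod.fst (Sum.inl_injective e)).symm⟩
            · exact ⟨P₀, trivial, fun c => by simp⟩
          have hm1 : flip i ∈ stabilizer (Perm Ω) (pt : Ω) :=
            mem_stabilizer_iff.2 (Equiv.swap_apply_of_ne_of_ne (by simp [pt]) (by simp [pt]))
          have hm2 : flip i ∈ stabilizer (Perm Ω) x :=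
            mem_stabilizer_iff.2 (Equiv.swap_apply_of_ne_of_ne (hix _) (hix _))
          have := hh (x := flip i) ⟨hm1, hm2⟩
          rw [mem_alternatingGroup, Equiv.Perm.sign_swap (by simp)] at this
          exact absurd this (by decide)
      obtain ⟨r, hr, hrx⟩ := sylow_orbit R₀ (pt : Ω) x k hcard hfix hx hd y hy
      exact ⟨r, hRL hr, hfix r hr, hrx⟩
    obtain ⟨htrans, hprim⟩ := prim_of_transitive_off hm2 L g hg hgm htr
    apply hL
    by_cases hm3 : m = 2
    · -- degree five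
      by_contra hne
      have h5 : 5 ≤ Nat.card Ω := by rw [Nat.card_eq_fintype_card, hcard, ← hm]; omega
      have h1 := Alt.card_le_index_alt h5 hne
      have h2 := index_stabilizer_of_transitive L (pt : Ω)
      have h3 := (stabilizer L (pt : Ω)).index_mul_card
      have h4 : Nat.card R₀ ∣ Nat.card L := Subgroup.card_dvd_of_le hRL
      have h60 : Nat.card A = 60 := by
        rw [nat_card_alternatingGroup, Nat.card_eq_fintype_card, hcard, ← hm, hm3]; rfl
      have h44 : Nat.card R₀ = 4 := by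
        rw [R₀.card_eq_multiplicity, h60, show (60 : ℕ) = 2 ^ 2 * 15 by norm_num,
          Nat.factorization_mul (by norm_num) (by norm_num),
          Nat.Prime.factorization_pow Nat.prime_two, Finsupp.coe_add, Pi.add_apply,
          Finsupp.single_eq_same, Nat.factorization_eq_zero_of_not_dvd (by norm_num : ¬ 2 ∣ 15)]
        norm_num
      have h55 : 5 ∣ Nat.card L := by
        refine ⟨Nat.card (stabilizer L (pt : Ω)), h3.symm.trans ?_⟩
        rw [h2, Nat.card_eq_fintype_card, hcard, show 2 ^ k + 1 = 5 by omega]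
      have h20 : 20 ∣ Nat.card L :=
        Nat.Coprime.mul_dvd_of_dvd_of_dvd (by norm_num : Nat.Coprime 4 5) (h44 ▸ h4) h55
      have h6 := L.index_mul_card
      rw [h60] at h6
      have h7 := Nat.le_of_dvd Nat.card_pos h20
      have : 5 * 20 ≤ L.index * Nat.card L := Nat.mul_le_mul (h5.trans h1) h7
      omega
    have h4 : 4 ≤ m := by
      rcases k with _ | _ | _ | k
      · omega
      · omega
      · omega
      · simp only [pow_succ] at hm
        have := Nat.one_le_two_pow (n := k)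
        omega
    let M := L.map A.subtype
    haveI : IsPreprimitive M Ω := by
      let f : Ω →ₑ[(L.equivMapOfInjective A.subtype A.subtype_injective : L → M)] Ω :=
        ⟨id, fun _ _ => rfl⟩
      exact IsPreprimitive.of_surjective (f := f) Function.surjective_id
    have mem2 : ∀ a b : Fin m, a ≠ b → flip a * flip b ∈ M := by
      intro a b hab
      obtain ⟨hca, hka⟩ := hflip a
      obtain ⟨hcb, hkb⟩ := hflip b
      have hs : flip a * flip b ∈ A := by
        rw [mem_alternatingGroup, map_mul, Equiv.Perm.sign_swap (by simp),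
          Equiv.Perm.sign_swap (by simp)]
        rfl
      refine ⟨⟨_, hs⟩, hRL ?_, rfl⟩
      refine kernel_le_sylow A.subtype A.subtype_injective R₀ (fun r hr => hR₀ hr) ⟨_, hs⟩
        (mul_mem hca hcb) ?_
      show pairHom m 1 (⟨flip a, hca⟩ * ⟨flip b, hcb⟩) = 1
      rw [map_mul, hka, hkb, one_mul]
    have hM := alt_le_of_flips M inferInstance h4 P₀ P₁ hP01 mem2
    rw [eq_top_iff]
    intro w _
    obtain ⟨w', hw', he⟩ := hM w.2
    rwa [← Subtype.ext he]
  · -- the symmetric group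
    intro R
    refine iff_true_intro ?_
    obtain ⟨R₀, hR₀⟩ := exists_sylow_le (pairCentralizer m 1) hpodd
    rw [uniq_sylow_iff R R₀]
    have hfix : ∀ r ∈ (R₀ : Subgroup (Perm Ω)), r • (pt : Ω) = pt := fun r hr => pairs_fix_pt (hR₀ hr)
    refine uniq_of_forall (M := stabilizer (Perm Ω) (pt : Ω)) ?_ hfix ?_
    · intro h
      have hmem : Equiv.swap (pt : Ω) (.inl (P₀, false)) ∈ stabilizer (Perm Ω) (pt : Ω) := by
        rw [h]; trivial
      rw [mem_stabilizer_iff, Perm.smul_def, Equiv.swap_apply_left] at hmem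
      exact absurd hmem (by simp [pt])
    intro L hL hRL
    by_contra hle
    obtain ⟨g, hg, hgm⟩ := Set.not_subset.1 hle
    rw [SetLike.mem_coe, mem_stabilizer_iff] at hgm
    have htr : ∀ x y : Ω, x ≠ pt → y ≠ pt → ∃ r ∈ L, r • (pt : Ω) = pt ∧ r • x = y := by
      intro x y hx hy
      obtain ⟨r, hr, hrx⟩ := sylow_orbit R₀ (pt : Ω) x k hcard hfix hx
        (by rw [← hm]; exact index_two_point x hx) y hy
      exact ⟨r, hRL hr, hfix r hr, hrx⟩
    obtain ⟨-, hprim⟩ := prim_of_transitive_off hm2 L g hg hgm htr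
    refine hL (subgroup_eq_top_of_isPreprimitive_of_isSwap_mem hprim (flip P₀) ?_ (hRL ?_))
    · exact ⟨_, _, by simp, rfl⟩
    · obtain ⟨hc, hk'⟩ := hflip P₀
      exact kernel_le_sylow (MonoidHom.id _) Function.injective_id R₀ (fun r hr => hR₀ hr) _ hc hk'

end Positive

end Cfsg.Agent.UniqueMaxAlt
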