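import Cfsg.Agent.Alt.ThreeCycle
import Cfsg.Agent.Alt.Basic
import Mathlib.GroupTheory.GroupAction.Jordan
import Mathlib.GroupTheory.Sylow
import Mathlib.NumberTheory.Padics.PadicVal.Basic

/-!
Generalities for "a Sylow subgroup lies in exactly one maximal subgroup" and generation criteria for
alternating groups.
-/

set_option autoImplicit false
set_option linter.unusedSectionVars false
set_option linter.style.haveILetI false

namespace Cfsg.Agent.UniqueMaxAlt

open Equiv Equiv.Perm MulAction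
open scoped Pointwise

section Group

variable {G : Type*} [Group G] [Finite G]

/-- Exactly one maximal subgroup contains `R`. -/
def Uniq (R : Subgroup G) : Prop := ∃! M : Subgroup G, IsCoatom M ∧ R ≤ M

theorem uniq_of_forall {R M : Subgroup G} (hM : M ≠ ⊤) (hRM : R ≤ M)
    (h : ∀ L : Subgroup G, L ≠ ⊤ → R ≤ L → L ≤ M) : Uniq R := by
  have hco : IsCoatom M := by
    refine ⟨hM, fun L hL => ?_⟩
    by_contra hne
    exact hL.not_ge (h L hne (hRM.trans hL.le))
  refine ⟨M, ⟨hco, hRM⟩, fun L hL => ?_⟩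
  exact (hL.1.le_iff.1 (le_refl L)).elim (fun e => absurd e hL.1.1) fun _ =>
    ((hL.1.le_iff.1 (h L hL.1.1 hL.2)).elim (fun e => absurd e hM) Eq.symm)

theorem not_uniq {R K₁ K₂ : Subgroup G} (h1 : K₁ ≠ ⊤) (h2 : K₂ ≠ ⊤) (hsup : K₁ ⊔ K₂ = ⊤)
    (hR : R ≤ K₁ ⊓ K₂) : ¬ Uniq R := by
  rintro ⟨M, ⟨hM, -⟩, hu⟩
  obtain ⟨M₁, hM₁, hle₁⟩ := (eq_top_or_exists_le_coatom K₁).resolve_left h1
  obtain ⟨M₂, hM₂, hle₂⟩ := (eq_top_or_exists_le_coatom K₂).resolve_left h2
  have e1 := hu M₁ ⟨hM₁, (hR.trans inf_le_left).trans hle₁⟩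
  have e2 := hu M₂ ⟨hM₂, (hR.trans inf_le_right).trans hle₂⟩
  subst e1; subst e2
  exact hM.1 (top_le_iff.1 (hsup ▸ sup_le hle₁ hle₂))

theorem uniq_map {H : Type*} [Group H] [Finite H] (e : G ≃* H) {R : Subgroup G} :
    Uniq (R.map e.toMonoidHom) ↔ Uniq R := by
  let Φ := e.mapSubgroup
  have key : ∀ M : Subgroup G, (IsCoatom (Φ M) ∧ R.map e.toMonoidHom ≤ Φ M) ↔ (IsCoatom M ∧ R ≤ M) :=
    fun M => and_congr (Φ.isCoatom_iff M) (Φ.le_iff_le (x := R) (y := M))
  constructor
  · rintro ⟨M, hM, hu⟩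
    obtain ⟨M, rfl⟩ := Φ.surjective M
    exact ⟨M, (key M).1 hM, fun L hL => Φ.injective (hu _ ((key L).2 hL))⟩
  · rintro ⟨M, hM, hu⟩
    refine ⟨Φ M, (key M).2 hM, fun L hL => ?_⟩
    obtain ⟨L, rfl⟩ := Φ.surjective L
    rw [hu L ((key L).1 hL)]

theorem uniq_sylow_iff (R R' : Sylow 2 G) : Uniq (R : Subgroup G) ↔ Uniq (R' : Subgroup G) := by
  obtain ⟨g, hg⟩ := MulAction.exists_smul_eq G R R'
  have : (R' : Subgroup G) = (R : Subgroup G).map (MulAut.conj g).toMonoidHom := by
    rw [← hg, Sylow.coe_subgroup_smul]; rfl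
  rw [this, uniq_map]

theorem exists_sylow_le (K : Subgroup G) (hK : Odd K.index) :
    ∃ R : Sylow 2 G, (R : Subgroup G) ≤ K := by
  obtain ⟨S⟩ : Nonempty (Sylow 2 K) := inferInstance
  have hcard : ¬ 2 ∣ ((S : Subgroup K).map K.subtype).index := by
    rw [Subgroup.index_map_subtype]
    exact fun hd => (Nat.prime_two.dvd_mul.mp hd).elim S.not_dvd_index
      (Nat.not_even_iff_odd.mpr hK ∘ even_iff_two_dvd.mpr)
  exact ⟨(S.2.map K.subtype).toSylow hcard, Subgroup.map_subtype_le _⟩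

theorem forall_not_uniq {K₁ K₂ : Subgroup G} (h1 : K₁ ≠ ⊤) (h2 : K₂ ≠ ⊤) (hsup : K₁ ⊔ K₂ = ⊤)
    (hodd : Odd (K₁ ⊓ K₂).index) (R : Sylow 2 G) : ¬ Uniq (R : Subgroup G) := by
  obtain ⟨R₀, hR₀⟩ := exists_sylow_le _ hodd
  rw [uniq_sylow_iff R R₀]
  exact not_uniq h1 h2 hsup hR₀

theorem forall_uniq_congr {H : Type*} [Group H] [Finite H] (e : G ≃* H) (P : Prop) :
    (∀ R : Sylow 2 G, Uniq (R : Subgroup G) ↔ P) → ∀ R : Sylow 2 H, Uniq (R : Subgroup H) ↔ P := by
  intro h R
  obtain ⟨R₀⟩ : Nonempty (Sylow 2 G) := inferInstance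
  have hs : Function.Surjective e.toMonoidHom := e.surjective
  rw [← h R₀, uniq_sylow_iff R (R₀.mapSurjective hs),
    Sylow.coe_mapSurjective, uniq_map]

theorem index_subgroupOf_of_not_le {H A : Subgroup G} (hA : A.index = 2) (h : ¬ H ≤ A) :
    (H.subgroupOf A).index = H.index := by
  haveI : A.Normal := Subgroup.normal_of_index_eq_two hA
  have h1 := Subgroup.relIndex_mul_index (inf_le_right : H ⊓ A ≤ A)
  have h2 := Subgroup.relIndex_mul_index (inf_le_left : H ⊓ A ≤ H)
  rw [Subgroup.inf_relIndex_right, hA] at h1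
  rw [Subgroup.inf_relIndex_left] at h2
  have h3 : A.relIndex H = 2 := by
    have := Subgroup.relIndex_dvd_index_of_normal A H
    rw [hA] at this
    exact ((Nat.dvd_prime Nat.prime_two).1 this).resolve_left fun e => h (Subgroup.relIndex_eq_one.1 e)
  rw [h3] at h2
  show H.relIndex A = _
  omega

theorem not_le_of_odd_index {H A : Subgroup G} (hA : A.index = 2) (h : Odd H.index) : ¬ H ≤ A := by
  intro hle
  have := Subgroup.index_dvd_of_le hle
  rw [hA] at this
  exact (Nat.not_even_iff_odd.2 h) (even_iff_two_dvd.2 this)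

/-- A Sylow `2`-subgroup fixing a point is transitive on the others when their number is `2 ^ k`. -/
theorem sylow_orbit {α : Type*} [Fintype α] [MulAction G α] (R : Sylow 2 G) (f x : α) (k : ℕ)
    (hn : Fintype.card α = 2 ^ k + 1) (hf : ∀ r ∈ (R : Subgroup G), r • f = f) (hx : x ≠ f)
    (hd : 2 ^ k ∣ (stabilizer G f ⊓ stabilizer G x).index) (y : α) (hy : y ≠ f) :
    ∃ r ∈ (R : Subgroup G), r • x = y := by
  classical
  set H := stabilizer G f ⊓ stabilizer G x with hH
  have h1 : H.index ∣ H.relIndex R * (R : Subgroup G).index := by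
    rw [← Subgroup.inf_relIndex_right H, Subgroup.relIndex_mul_index inf_le_right]
    exact Subgroup.index_dvd_of_le inf_le_left
  have hcop : Nat.Coprime (2 ^ k) (R : Subgroup G).index :=
    Nat.Coprime.pow_left k (Nat.prime_two.coprime_iff_not_dvd.2 R.not_dvd_index)
  have h2 : 2 ^ k ∣ H.relIndex R := hcop.dvd_of_dvd_mul_right (hd.trans h1)
  have h3 : H.relIndex R = (orbit (R : Subgroup G) x).ncard := by
    have e : H.subgroupOf (R : Subgroup G) = stabilizer (R : Subgroup G) x := by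
      ext r
      rw [Subgroup.mem_subgroupOf, hH, Subgroup.mem_inf, mem_stabilizer_iff, mem_stabilizer_iff,
        mem_stabilizer_iff]
      exact ⟨fun h => h.2, fun h => ⟨hf _ r.2, h⟩⟩
    show (H.subgroupOf (R : Subgroup G)).index = _
    rw [e]
    exact index_stabilizer (G := (R : Subgroup G)) (x := x)
  have hsub : orbit (R : Subgroup G) x ⊆ ({f} : Set α)ᶜ := by
    rintro _ ⟨r, rfl⟩ (h : r • x = f)
    exact hx (smul_left_cancel (r : G) (show (r : G) • x = (r : G) • f by rw [hf _ r.2]; exact h))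
  have hcard : ({f} : Set α)ᶜ.ncard = 2 ^ k := by
    rw [Set.ncard_compl, Set.ncard_singleton, Nat.card_eq_fintype_card, hn, Nat.add_sub_cancel]
  have hpos : 0 < (orbit (R : Subgroup G) x).ncard :=
    (Set.ncard_pos (Set.toFinite _)).2 ⟨x, mem_orbit_self x⟩
  have heq := Set.eq_of_subset_of_ncard_le hsub (by
    rw [hcard, ← h3]; exact Nat.le_of_dvd (h3 ▸ hpos) h2)
  have hy' : y ∈ orbit (R : Subgroup G) x := by rw [heq]; exact hy
  obtain ⟨r, hr⟩ := hy'
  exact ⟨r, r.2, hr⟩

end Group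

section Binomial

theorem odd_choose_two_pow_add {k r : ℕ} (hr : r < 2 ^ k) : Odd (Nat.choose (2 ^ k + r) (2 ^ k)) := by
  haveI : Fact (Nat.Prime 2) := ⟨Nat.prime_two⟩
  have hv : padicValNat 2 (Nat.choose (2 ^ k + r) (2 ^ k)) = 0 := by
    rw [add_comm, padicValNat_choose' (Nat.lt_succ_self _), Finset.card_eq_zero,
      Finset.filter_eq_empty_iff]
    intro i hi
    rw [Finset.mem_Ico] at hi
    rcases le_or_gt i k with h | h
    · rw [Nat.dvd_iff_mod_eq_zero.1 (pow_dvd_pow 2 h), zero_add, not_le]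
      exact Nat.mod_lt _ (by positivity)
    · have hi' : 2 ^ (k + 1) ≤ 2 ^ i := Nat.pow_le_pow_right two_pos h
      rw [pow_succ] at hi'
      have h1 := Nat.mod_le (2 ^ k) (2 ^ i)
      have h2 := Nat.mod_le r (2 ^ i)
      omega
  rw [← Nat.not_even_iff_odd, even_iff_two_dvd]
  intro hd
  have := one_le_padicValNat_of_dvd (Nat.choose_pos (Nat.le_add_right _ _)).ne' hd
  omega

theorem odd_choose_central_half {k : ℕ} :
    Odd (Nat.choose (2 * 2 ^ k - 1) (2 ^ k)) ∧
      Nat.choose (2 * 2 ^ k) (2 ^ k) = 2 * Nat.choose (2 * 2 ^ k - 1) (2 ^ k) := by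
  have hpos : 0 < 2 ^ k := by positivity
  refine ⟨?_, ?_⟩
  · have := odd_choose_two_pow_add (k := k) (r := 2 ^ k - 1) (by omega)
    rwa [show 2 ^ k + (2 ^ k - 1) = 2 * 2 ^ k - 1 by omega] at this
  · obtain ⟨b, hb⟩ : ∃ b, 2 ^ k = b + 1 := ⟨2 ^ k - 1, by omega⟩
    rw [hb, show 2 * (b + 1) - 1 = 2 * b + 1 by omega, show 2 * (b + 1) = (2 * b + 1) + 1 by omega,
      Nat.choose_succ_succ, Nat.choose_symm_half]
    ring

end Binomial

section Perm

variable {α : Type*} [Fintype α] [DecidableEq α]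

/-- The index of the stabiliser of a set. -/
theorem index_stabilizer_set (s : Set α) :
    (stabilizer (Perm α) s).index = Nat.choose (Fintype.card α) s.ncard := by
  classical
  rw [index_stabilizer]
  have : orbit (Perm α) s =
      (fun t : Finset α => (t : Set α)) '' (Finset.univ.powersetCard s.ncard : Finset (Finset α)) := by
    ext t
    constructor
    · rintro ⟨g, rfl⟩
      refine ⟨(g • s).toFinset, ?_, Set.coe_toFinset _⟩
      rw [Finset.mem_coe, Finset.mem_powersetCard]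
      exact ⟨Finset.subset_univ _, by rw [← Set.ncard_eq_toFinset_card', Set.ncard_smul_set]⟩
    · rintro ⟨u, hu, rfl⟩
      rw [Finset.mem_coe, Finset.mem_powersetCard] at hu
      have hsc : Fintype.card {x // x ∈ s} = Fintype.card {x // x ∈ u} := by
        rw [Fintype.card_coe, hu.2, ← Nat.card_eq_fintype_card]
        exact (Nat.card_coe_set_eq s)
      let e1 : {x // x ∈ s} ≃ {x // x ∈ u} := Fintype.equivOfCardEq hsc
      refine ⟨e1.extendSubtype, ?_⟩
      show e1.extendSubtype • s = (u : Set α)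
      refine Set.eq_of_subset_of_ncard_le ?_ ?_
      · rintro _ ⟨x, hx, rfl⟩
        exact e1.extendSubtype_mem x hx
      · rw [Set.ncard_smul_set, Set.ncard_coe_finset, hu.2]
  rw [this, Set.ncard_image_of_injective _ Finset.coe_injective, Set.ncard_coe_finset,
    Finset.card_powersetCard, Finset.card_univ]

/-- A transitive group containing all three-cycles inside a large set contains the alternating
group, unless that set is a block. -/
theorem alt_le_of_cycles (M : Subgroup (Perm α)) (X : Set α) (h3 : 3 ≤ X.ncard)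
    (hn : Fintype.card α ≤ 2 * X.ncard)
    (hcyc : ∀ a b c : α, a ∈ X → b ∈ X → c ∈ X → a ≠ b → a ≠ c → b ≠ c → Alt.cyc3 a b c ∈ M)
    (hreach : ∀ y, ∃ g ∈ M, g y ∈ X)
    (hblock : Fintype.card α = 2 * X.ncard →
      ∃ g ∈ M, (∃ x ∈ X, g x ∈ X) ∧ ∃ x ∈ X, g x ∉ X) :
    alternatingGroup α ≤ M := by
  classical
  have third : ∀ a b : α, ∃ c ∈ X, c ≠ a ∧ c ≠ b := by
    intro a b
    by_contra! h
    have hsub : X ⊆ {a, b} := fun c hc => by
      by_cases hca : c = a
      · exact Or.inl hca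
      · exact Or.inr (h c hc hca)
    have hle := Set.ncard_le_ncard hsub
    have h2 : ({a, b} : Set α).ncard ≤ 2 := (Set.ncard_insert_le _ _).trans (by simp)
    omega
  have hX : ∀ x ∈ X, ∀ y ∈ X, ∃ g ∈ M, g x = y := by
    intro x hx y hy
    by_cases hxy : x = y
    · exact ⟨1, one_mem _, hxy⟩
    obtain ⟨c, hc, hcx, hcy⟩ := third x y
    exact ⟨_, hcyc x y c hx hy hc hxy hcx.symm hcy.symm, Alt.cyc3_apply_left hxy hcx.symm⟩
  obtain ⟨x₀, hx₀⟩ := Set.nonempty_of_ncard_ne_zero (s := X) (by omega)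
  haveI : IsPretransitive M α := by
    refine ⟨fun y z => ?_⟩
    obtain ⟨g, hg, hgy⟩ := hreach y
    obtain ⟨h, hh, hhz⟩ := hreach z
    obtain ⟨k, hk, hk'⟩ := hX _ hgy _ hhz
    refine ⟨⟨h⁻¹ * (k * g), mul_mem (inv_mem hh) (mul_mem hk hg)⟩, ?_⟩
    show (h⁻¹ * (k * g)) y = z
    rw [Perm.mul_apply, Perm.mul_apply, hk', Perm.coe_inv, Equiv.symm_apply_apply]
  have hprim : IsPreprimitive M α := by
    refine IsPreprimitive.of_isTrivialBlock_base x₀ fun {B} hxB hB => ?_
    by_cases h2 : ∃ y ∈ B, y ∈ X ∧ y ≠ x₀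
    · obtain ⟨y, hyB, hyX, hne⟩ := h2
      have hXB : X ⊆ B := by
        intro z hz
        by_cases hzx : z = x₀
        · exact hzx ▸ hxB
        by_cases hzy : z = y
        · exact hzy ▸ hyB
        let g : M := ⟨Alt.cyc3 x₀ y z, hcyc _ _ _ hx₀ hyX hz hne.symm (Ne.symm hzx) (Ne.symm hzy)⟩
        have h1 : g • x₀ = y := Alt.cyc3_apply_left hne.symm (Ne.symm hzx)
        have h2 : g • y = z := Alt.cyc3_apply_mid (Ne.symm hzx) (Ne.symm hzy)
        rcases hB.smul_eq_or_disjoint g with he | hd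
        · rw [← he, ← h2]; exact Set.smul_mem_smul_set hyB
        · exact absurd hyB (fun hy => Set.disjoint_left.1 hd (h1 ▸ Set.smul_mem_smul_set hxB) hy)
      refine Or.inr ?_
      have hdvd := hB.ncard_dvd_card ⟨x₀, hxB⟩
      rw [Nat.card_eq_fintype_card] at hdvd
      have hle := Set.ncard_le_ncard hXB
      have hBn : B.ncard ≤ Fintype.card α := by
        rw [← Nat.card_eq_fintype_card, ← Set.ncard_univ]; exact Set.ncard_le_ncard (Set.subset_univ _)
      by_contra hne'
      have hlt : B.ncard < Fintype.card α := by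
        refine lt_of_le_of_ne hBn fun e => hne' ?_
        exact Set.eq_of_subset_of_ncard_le (Set.subset_univ _)
          (by rw [Set.ncard_univ, Nat.card_eq_fintype_card, e])
      obtain ⟨d, hd⟩ := hdvd
      have hd2 : 2 ≤ d := by
        rcases d with _ | _ | d
        · omega
        · omega
        · omega
      have := Nat.mul_le_mul_left B.ncard hd2
      have hBX : B = X := (Set.eq_of_subset_of_ncard_le hXB (by omega)).symm
      obtain ⟨g, hg, ⟨x, hx, hgx⟩, x', hx', hgx'⟩ := hblock (by omega)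
      rcases hB.smul_eq_or_disjoint (⟨g, hg⟩ : M) with he | hdis
      · exact hgx' (by
          rw [← hBX, ← he]
          exact Set.smul_mem_smul_set (hBX ▸ hx'))
      · exact Set.disjoint_left.1 hdis (Set.smul_mem_smul_set (a := (⟨g, hg⟩ : M)) (hBX.symm ▸ hx))
          (hBX.symm ▸ hgx)
    · refine Or.inl fun y hy z hz => ?_
      have key : ∀ w ∈ B, w = x₀ := by
        intro w hw
        by_contra hne
        push Not at h2
        have hwX : w ∉ X := fun h => hne (h2 w hw h)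
        obtain ⟨a, ha, hax, -⟩ := third x₀ x₀
        obtain ⟨b, hb, hbx, hba⟩ := third x₀ a
        let g : M := ⟨Alt.cyc3 x₀ a b, hcyc _ _ _ hx₀ ha hb hax.symm hbx.symm hba.symm⟩
        have hgw : g • w = w :=
          Alt.cyc3_apply_other hne (fun e => hwX (e ▸ ha)) (fun e => hwX (e ▸ hb))
        rcases hB.smul_eq_or_disjoint g with he | hd
        · have hga : g • x₀ ∈ B := he ▸ Set.smul_mem_smul_set hxB
          rw [show g • x₀ = a from Alt.cyc3_apply_left hax.symm hbx.symm] at hga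
          exact hax (h2 a hga ha)
        · exact Set.disjoint_left.1 hd (hgw ▸ Set.smul_mem_smul_set hw) hw
      rw [key y hy, key z hz]
  obtain ⟨a, ha, hax, -⟩ := third x₀ x₀
  obtain ⟨b, hb, hbx, hba⟩ := third x₀ a
  exact alternatingGroup_le_of_isPreprimitive_of_isThreeCycle_mem hprim
    (Alt.isThreeCycle_cyc3 hax.symm hbx.symm hba.symm)
    (hcyc _ _ _ hx₀ ha hb hax.symm hbx.symm hba.symm)

end Perm

end Cfsg.Agent.UniqueMaxAlt
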